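-- Team project HUPT (S3360), package [CNT] (helper97):
-- an additive map of order dividing a primitive prime divisor on a group of order `q ^ k`,
-- `k ≤ n`, is the identity or fixed-point-free (and then `k = n`).
import Mathlib
import Cfsg.Agent.Lib.Helper50.HUPT.Defs

set_option autoImplicit false

namespace Cfsg.Agent.Lib.Helper97.HUPT

open Cfsg.Agent.Lib.Helper50.HUPT

universe u

/-- [CNT] -/
theorem pkgCnt : PkgCnt.{u} := by
  intro q n p hq hppd U _ _ φ k hkn hU hφ
  obtain ⟨hp, hdvd, hmin⟩ := hppd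
  have : Fact p.Prime := Fact.mk hp
  classical
  haveI : Fintype U := Fintype.ofFinite U
  rcases Nat.eq_zero_or_pos n with hn0 | hn
  · left
    have hk0 : k = 0 := by omega
    rw [hk0, pow_zero] at hU
    haveI : Subsingleton U := (Nat.card_eq_one_iff_unique.mp hU).1
    exact fun u => Subsingleton.elim _ _
  let Fix : AddSubgroup U := (φ - AddMonoidHom.id U).ker
  have hFix : ∀ u, u ∈ Fix ↔ φ u = u := by
    intro u
    show (φ - AddMonoidHom.id U) u = 0 ↔ _
    rw [AddMonoidHom.sub_apply, AddMonoidHom.id_apply, sub_eq_zero]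
  let f : Function.End U := (φ : U → U)
  have hf : f ^ p ^ 1 = 1 := by
    rw [pow_one]
    have h := hom_coe_pow (fun g : Function.End U ↦ g) rfl (fun g h ↦ rfl) f p
    exact h.trans (funext hφ)
  have hmod := Equiv.Perm.card_fixedPoints_modEq (p := p) (n := 1) hf
  have hset : Nat.card (Function.fixedPoints f) = Nat.card Fix :=
    Nat.card_congr (Equiv.subtypeEquivRight (fun u => by
      rw [hFix]
      exact Iff.rfl))
  obtain ⟨c, hck, hc⟩ := (Nat.dvd_prime_pow hq.out).mp
    (hU ▸ AddSubgroup.card_addSubgroup_dvd_card Fix)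
  rw [← Nat.card_eq_fintype_card, ← Nat.card_eq_fintype_card, hset, hU, hc] at hmod
  have hq2 : 2 ≤ q := hq.out.two_le
  have hpq : ¬ p ∣ q := by
    intro h
    have h1 : p ∣ q ^ n := dvd_pow h hn.ne'
    have h2 : 1 ≤ q ^ n := Nat.one_le_pow _ _ (by omega)
    have h3 : q ^ n = (q ^ n - 1) + 1 := by omega
    rw [h3] at h1
    exact hp.one_lt.ne' (Nat.dvd_one.mp ((Nat.dvd_add_right hdvd).mp h1))
  obtain ⟨e, he⟩ : ∃ e, k = c + e := ⟨k - c, by omega⟩
  have hcop : Nat.gcd p (q ^ c) = 1 :=
    Nat.Coprime.pow_right c ((Nat.Prime.coprime_iff_not_dvd hp).mpr hpq)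
  have hmod2 : q ^ e ≡ 1 [MOD p] := by
    apply Nat.ModEq.cancel_left_of_coprime hcop
    rw [mul_one, ← pow_add, ← he]
    exact hmod
  have hone : 1 ≤ q ^ e := Nat.one_le_pow _ _ (by omega)
  have hdvd2 : p ∣ q ^ e - 1 := (Nat.modEq_iff_dvd' hone).mp hmod2.symm
  rcases Nat.eq_zero_or_pos e with he0 | hepos
  · left
    have hcard : Nat.card Fix = Nat.card U := by
      rw [hc, hU, he, he0, add_zero]
    have htop : Fix = ⊤ := AddSubgroup.eq_top_of_card_eq Fix hcard
    intro u
    exact (hFix u).mp (htop ▸ AddSubgroup.mem_top u)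
  · right
    have hen : e = n := by
      by_contra hne
      exact hmin e hepos (by omega) hdvd2
    have hc0 : c = 0 := by omega
    refine ⟨by omega, fun u hu => ?_⟩
    rw [hc0, pow_zero] at hc
    haveI : Subsingleton Fix := (Nat.card_eq_one_iff_unique.mp hc).1
    exact congrArg Subtype.val (Subsingleton.elim (⟨u, (hFix u).mpr hu⟩ : Fix) 0)

end Cfsg.Agent.Lib.Helper97.HUPT
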