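-- Team project HUPT (S3360), package [PNUM] (helper97):
-- a primitive prime divisor of `q ^ n - 1` is at least `n + 1`.
import Mathlib
import Cfsg.Agent.Lib.Helper50.HUPT.Defs

set_option autoImplicit false

namespace Cfsg.Agent.Lib.Helper97.HUPT

open Cfsg.Agent.Lib.Helper50.HUPT

/-- [PNUM] -/
theorem pkgPNum : PkgPNum := by
  intro q n p hn ⟨hp, hdvd, hmin⟩
  have : Fact p.Prime := Fact.mk hp
  by_cases hq : q ≤ 1
  · have h0 : ∀ j : ℕ, 0 < j → q ^ j - 1 = 0 := by
      intro j hj
      interval_cases q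
      · simp [zero_pow hj.ne']
      · simp
    have hn1 : n = 1 := by
      by_contra hne
      exact hmin 1 one_pos (by omega) (by rw [h0 1 one_pos]; exact dvd_zero p)
    have := hp.two_le
    omega
  · push Not at hq
    have hcast : ∀ j : ℕ, ((q : ZMod p)) ^ j = 1 ↔ p ∣ q ^ j - 1 := by
      intro j
      have hqj : 1 ≤ q ^ j := Nat.one_le_pow _ _ (by omega)
      rw [← (ZMod.natCast_eq_zero_iff (q ^ j - 1) p), Nat.cast_sub hqj, Nat.cast_pow,
        Nat.cast_one, sub_eq_zero]
    have hord : orderOf (q : ZMod p) = n := by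
      rw [orderOf_eq_iff hn]
      refine ⟨(hcast n).mpr hdvd, fun m hm hm0 => ?_⟩
      rw [Ne, hcast m]
      exact hmin m hm0 hm
    have hq0 : (q : ZMod p) ≠ 0 := by
      intro h0
      have h1 := (hcast n).mpr hdvd
      rw [h0, zero_pow hn.ne'] at h1
      exact zero_ne_one h1
    have h2 := orderOf_dvd_of_pow_eq_one (ZMod.pow_card_sub_one_eq_one hq0)
    rw [hord] at h2
    have h3 := Nat.le_of_dvd (by have := hp.two_le; omega) h2
    have := hp.two_le
    omega

end Cfsg.Agent.Lib.Helper97.HUPT
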