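-- Team project HUPT (S3360), package [XB] (helper97): the arithmetic of the case [X].
import Mathlib
import Cfsg.Agent.Lib.Helper50.HUPT.Defs

set_option autoImplicit false

namespace Cfsg.Agent.Lib.Helper97.HUPT

open Cfsg.Agent.Lib.Helper50.HUPT

/-- [XB] -/
theorem pkgXB : PkgXB := by
  rintro q n p r d N hn ⟨hp, hdvd, -⟩ hnp hr hd hrd hodd hN hk
  have ha2 : 2 ≤ r ^ d := by
    calc 2 ≤ r := hr.two_le
      _ = r ^ 1 := (pow_one r).symm
      _ ≤ r ^ d := Nat.pow_le_pow_right hr.pos hd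
  obtain ⟨b, hb⟩ : ∃ b, r ^ d = b + 1 := ⟨r ^ d - 1, by omega⟩
  have hfac : r ^ (2 * d) - 1 = b * (b + 2) := by
    rw [pow_mul', hb]
    have h : (b + 1) ^ 2 = b * (b + 2) + 1 := by ring
    omega
  have h1 : p ∣ b * (b + 2) := by
    rw [← hfac]
    have h := hk 1 (by rw [pow_one]; exact dvd_trans hdvd hN)
    rwa [pow_one] at h
  have hpb : p = b + 2 := by
    rcases hp.dvd_mul.mp h1 with h | h
    · have := Nat.le_of_dvd (by omega) h
      omega
    · have := Nat.le_of_dvd (by omega) h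
      omega
  have hpn : p = n + 1 := by omega
  have hnb : n = b + 1 := by omega
  have hev : Even (r ^ d) := by
    rcases hp.eq_two_or_odd' with h2 | h2
    · omega
    · rw [hb, ← hnb]
      rcases h2 with ⟨t, ht⟩
      exact ⟨t, by omega⟩
  have hr2 : r = 2 := (Nat.Prime.even_iff hr).mp (Nat.even_pow.mp hev).1
  refine ⟨hodd hr2, ⟨d, ?_⟩, hpn, ?_⟩
  · rw [hnb, ← hb, hr2]
  · intro h2
    have h3 := hk 2 (dvd_trans h2 hN)
    rw [hfac, ← hpb, pow_two] at h3
    have h4 : p ∣ b := Nat.dvd_of_mul_dvd_mul_right hp.pos h3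
    have := Nat.le_of_dvd (by omega) h4
    omega

end Cfsg.Agent.Lib.Helper97.HUPT
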